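/-
Small facts used for elements of `PSL_n(q)` and subfield groups.
-/
import Mathlib
import Cfsg.Prelude.Def_GeometricClasses
import Cfsg.Agent.H953.Cent
set_option linter.all false

set_option autoImplicit false

namespace Cfsg.Agent.H953

open Polynomial

universe u

section Field

variable {F : Type u} [Field F] [Fintype F]

/-- Elements of the subfield with `q₀` elements are the fixed points of `a ↦ a ^ q₀`. -/
theorem mem_subfield_iff_pow (F₀ : Subfield F) {q₀ : ℕ} (hF₀ : Nat.card F₀ = q₀) (a : F) : a ∈ F₀ ↔ a ^ q₀ = a := by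
  classical
  have : Fintype F₀ := Fintype.ofFinite F₀
  have hc : Fintype.card F₀ = q₀ := by rw [← hF₀, Nat.card_eq_fintype_card]
  have h1 : 1 < q₀ := hc ▸ Fintype.one_lt_card
  constructor
  · intro ha
    have := FiniteField.pow_card (⟨a, ha⟩ : F₀)
    rw [hc] at this
    exact congrArg Subtype.val this
  · intro ha
    -- the polynomial X ^ q₀ - X has at most q₀ roots
    have hne : (X ^ q₀ - X : F[X]) ≠ 0 := FiniteField.X_pow_card_sub_X_ne_zero F h1
    have hdeg : (X ^ q₀ - X : F[X]).natDegree = q₀ := FiniteField.X_pow_card_sub_X_natDegree_eq F h1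
    let s : Finset F := Finset.univ.map ⟨(Subtype.val : F₀ → F), Subtype.val_injective⟩
    have hs : s.card = q₀ := by simp [s, hc]
    have hsub : s ⊆ (X ^ q₀ - X : F[X]).roots.toFinset := by
      intro b hb
      simp only [s, Finset.mem_map, Finset.mem_univ, true_and, Function.Embedding.coeFn_mk] at hb
      obtain ⟨b', rfl⟩ := hb
      rw [Multiset.mem_toFinset, mem_roots hne]
      have := FiniteField.pow_card b'
      rw [hc] at this
      have h2 := congrArg (Subtype.val) this
      simp only [SubmonoidClass.coe_pow] at h2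
      simp [IsRoot, h2]
    have hcard : (X ^ q₀ - X : F[X]).roots.toFinset.card ≤ s.card := by
      rw [hs]
      refine (Multiset.toFinset_card_le _).trans ((card_roots' _).trans ?_)
      rw [hdeg]
    have heq := Finset.eq_of_subset_of_card_le hsub hcard
    have hmem : a ∈ (X ^ q₀ - X : F[X]).roots.toFinset := by
      rw [Multiset.mem_toFinset, mem_roots hne]
      simp [IsRoot, ha]
    rw [← heq] at hmem
    simp only [s, Finset.mem_map, Finset.mem_univ, true_and, Function.Embedding.coeFn_mk] at hmem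
    obtain ⟨b', rfl⟩ := hmem
    exact b'.2

/-- In a finite field of characteristic `p`, `p`-th powers are everything. -/
theorem exists_pow_char (p : ℕ) [Fact p.Prime] [CharP F p] (a : F) : ∃ b : F, b ^ p = a := by
  have : ExpChar F p := ExpChar.prime Fact.out
  obtain ⟨b, hb⟩ := (frobenius_inj F p).bijective_of_finite.surjective a
  exact ⟨b, hb⟩

/-- If `b ^ p ∈ F₀` then `b ∈ F₀`. -/
theorem mem_of_pow_char_mem (p : ℕ) [Fact p.Prime] [CharP F p] (F₀ : Subfield F) {b : F} (hb : b ^ p ∈ F₀) : b ∈ F₀ := by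
  have : ExpChar F p := ExpChar.prime Fact.out
  have : Fintype F₀ := Fintype.ofFinite F₀
  obtain ⟨c, hc⟩ := exists_pow_char (F := F₀) p ⟨b ^ p, hb⟩
  have h1 : (c : F) ^ p = b ^ p := congrArg Subtype.val hc
  have h2 : (c : F) = b := frobenius_inj F p h1
  rw [← h2]; exact c.2

/-- For `k` odd and `q₀` odd some non-zero element of `F₀` is a non-square in `F`. -/
theorem exists_nonsquare_subfield (F₀ : Subfield F) {q₀ k : ℕ} (hF₀ : Nat.card F₀ = q₀)
    (hqk : Fintype.card F = q₀ ^ k) (hk : Odd k) (hodd : Odd q₀) : ∃ b ∈ F₀, b ≠ 0 ∧ ¬ IsSquare b := by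
  classical
  have : Fintype F₀ := Fintype.ofFinite F₀
  have hc : Fintype.card F₀ = q₀ := by rw [← hF₀, Nat.card_eq_fintype_card]
  have hchar0 : ringChar F₀ ≠ 2 := by
    intro h
    have := FiniteField.even_card_iff_char_two.mp h
    rw [hc] at this
    obtain ⟨m, hm⟩ := hodd
    omega
  obtain ⟨b, hb⟩ := FiniteField.exists_nonsquare hchar0
  have hb0 : b ≠ 0 := by
    rintro rfl; exact hb (IsSquare.zero)
  refine ⟨b, b.2, fun h => hb0 (Subtype.ext h), ?_⟩
  rintro ⟨c, hcc⟩
  -- c ^ (q₀ ^ 2) = c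
  have hb1 : (b : F) ^ q₀ = b := (mem_subfield_iff_pow F₀ hF₀ _).mp b.2
  have hcF : c ^ (q₀ ^ k) = c := by rw [← hqk]; exact FiniteField.pow_card c
  have hc0 : c ≠ 0 := by
    rintro rfl
    apply hb0
    apply Subtype.ext
    rw [hcc]; simp
  have h1 : (c ^ q₀) * (c ^ q₀) = c * c := by
    rw [← mul_pow, ← hcc, hb1]
  have h2 : c ^ q₀ = c ∨ c ^ q₀ = -c := mul_self_eq_mul_self_iff.mp h1
  have hneg : ∀ m, Odd m → c ^ q₀ = -c → c ^ (q₀ ^ m) = -c := by
    intro m hm h
    have h3 : ∀ l, c ^ (q₀ ^ (2 * l)) = c := by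
      intro l
      induction l with
      | zero => simp
      | succ l ih =>
        rw [show 2 * (l + 1) = 2 * l + 1 + 1 by ring, pow_succ, pow_succ, pow_mul, pow_mul, ih, h, hodd.neg_pow, h,
          neg_neg]
    obtain ⟨l, rfl⟩ := hm
    rw [pow_succ, pow_mul, h3, h]
  have h4 : c ^ q₀ = c := by
    rcases h2 with h | h
    · exact h
    · have := hneg k hk h
      rw [hcF] at this
      rw [h]; exact this.symm
  have hc' : c ∈ F₀ := (mem_subfield_iff_pow F₀ hF₀ c).mpr h4
  exact hb ⟨⟨c, hc'⟩, Subtype.ext hcc⟩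

/-- For `k = 2` the elements of `F₀` are squares in `F`. -/
theorem isSquare_of_mem_subfield (F₀ : Subfield F) {q₀ : ℕ} (hF₀ : Nat.card F₀ = q₀)
    (hqk : Fintype.card F = q₀ ^ 2) (hodd : Odd q₀) {b : F} (hb : b ∈ F₀) : IsSquare b := by
  classical
  by_cases hb0 : b = 0
  · rw [hb0]; exact IsSquare.zero
  have hb1 : b ^ q₀ = b := (mem_subfield_iff_pow F₀ hF₀ _).mp hb
  have h1 : 1 ≤ q₀ := hodd.pos
  have hchar : ringChar F ≠ 2 := by
    intro h
    have := FiniteField.even_card_iff_char_two.mp h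
    rw [hqk] at this
    have h2 : Odd (q₀ ^ 2) := hodd.pow
    obtain ⟨m, hm⟩ := h2
    omega
  rw [FiniteField.isSquare_iff hchar hb0, hqk]
  have h2 : b ^ (q₀ - 1) = 1 := by
    have : b ^ (q₀ - 1) * b = 1 * b := by
      rw [← pow_succ, Nat.sub_add_cancel h1, hb1, one_mul]
    exact mul_right_cancel₀ hb0 this
  obtain ⟨m, hm⟩ := hodd
  have h3 : q₀ ^ 2 / 2 = (q₀ - 1) * (m + 1) := by
    rw [hm]
    have : (2 * m + 1) ^ 2 = 2 * (2 * m * (m + 1)) + 1 := by ring
    rw [this]
    have : 2 * m + 1 - 1 = 2 * m := by omega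
    rw [this]
    omega
  rw [h3, pow_mul, h2, one_pow]

end Field

section SqZero

variable {K : Type*} [Field K] {V : Type*} [AddCommGroup V] [Module K V] [FiniteDimensional K V]

/-- A normal form of `N` with `ker N = range N`. -/
theorem exists_basis_of_ker_eq_range (N : V →ₗ[K] V) (h : LinearMap.ker N = LinearMap.range N) :
    ∃ (m : ℕ) (b : Module.Basis (Fin m ⊕ Fin m) K V), ∀ i, N (b (Sum.inl i)) = 0 ∧ N (b (Sum.inr i)) = b (Sum.inl i) := by
  classical
  obtain ⟨U, hU⟩ := Submodule.exists_isCompl (LinearMap.ker N)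
  have hinj : Function.Injective ((N.codRestrict (LinearMap.ker N) (fun v => h ▸ LinearMap.mem_range_self N v)).domRestrict U) := by
    rw [← LinearMap.ker_eq_bot, LinearMap.ker_eq_bot']
    rintro ⟨u, hu⟩ hu0
    have h1 : N u = 0 := congrArg Subtype.val hu0
    have h2 : u ∈ LinearMap.ker N ⊓ U := ⟨h1, hu⟩
    rw [hU.inf_eq_bot] at h2
    exact Subtype.ext h2
  have hsurj : Function.Surjective ((N.codRestrict (LinearMap.ker N) (fun v => h ▸ LinearMap.mem_range_self N v)).domRestrict U) := by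
    rintro ⟨w, hw⟩
    have hw' := hw
    rw [h] at hw'
    obtain ⟨v, rfl⟩ := hw'
    have hv : v ∈ LinearMap.ker N ⊔ U := by rw [hU.sup_eq_top]; trivial
    obtain ⟨a, ha, u, hu, rfl⟩ := Submodule.mem_sup.mp hv
    refine ⟨⟨u, hu⟩, Subtype.ext ?_⟩
    have : N a = 0 := ha
    simp [LinearMap.domRestrict_apply, this]
  let E : U ≃ₗ[K] LinearMap.ker N := LinearEquiv.ofBijective _ ⟨hinj, hsurj⟩
  let bU := Module.finBasis K U
  let bK := bU.map E
  let b := (bK.prod bU).map (Submodule.prodEquivOfIsCompl _ _ hU)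
  refine ⟨_, b, fun i => ⟨?_, ?_⟩⟩
  · have h1 : b (Sum.inl i) = (bK i : V) := by
      simp [b]
    rw [h1]
    exact (bK i).2
  · have h1 : b (Sum.inl i) = (bK i : V) := by
      simp [b]
    have h2 : b (Sum.inr i) = (bU i : V) := by
      simp [b]
    rw [h1, h2]
    simp only [bK, Module.Basis.map_apply]
    rfl

end SqZero

end Cfsg.Agent.H953
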